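import Cfsg.Agent.Lib.Helper58.OmSyl.Defs
import Cfsg.Agent.Lib.Helper14.DiscClass
import Cfsg.Agent.Lib.Helper14.DiscQuad

set_option autoImplicit false
set_option linter.unusedSectionVars false
set_option linter.unusedVariables false

/-! OmSyl farm (helper58), piece [D1]. -/

namespace Cfsg.Agent.Lib.Helper91.OmSyl

open Cfsg Cfsg.Agent.Lib.Helper58.WrSyl Cfsg.Agent.Lib.Helper58.OmSyl Cfsg.Agent.Lib.Helper14
open QuadraticMap Module

theorem hasDisc_wss {F : Type*} [Field F] {ι : Type*} [Fintype ι] [DecidableEq ι] (w : ι → F) :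
    HasDisc (polarBilin (weightedSumSquares F w)) (∏ i, 2 * w i) := by
  have h := hasDisc_polarBilin (weightedSumSquares F w)
  have e : Matrix.of (fun i j : ι => QuadraticMap.polar ⇑(weightedSumSquares F w) (Pi.single i 1) (Pi.single j 1))
      = Matrix.diagonal (fun i => 2 * w i) := by
    ext i j
    rw [Matrix.of_apply, Matrix.diagonal_apply]
    simp only [polar, weightedSumSquares_apply, smul_eq_mul, Pi.add_apply]
    rw [← Finset.sum_sub_distrib, ← Finset.sum_sub_distrib]
    have h1 : ∀ k : ι, w k * (((Pi.single i 1 : ι → F) k + (Pi.single j 1 : ι → F) k) *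
        ((Pi.single i 1 : ι → F) k + (Pi.single j 1 : ι → F) k)) -
        w k * ((Pi.single i 1 : ι → F) k * (Pi.single i 1 : ι → F) k) -
        w k * ((Pi.single j 1 : ι → F) k * (Pi.single j 1 : ι → F) k)
        = (Pi.single i 1 : ι → F) k * (2 * w k * (Pi.single j 1 : ι → F) k) := by
      intro k; ring
    rw [Finset.sum_congr rfl (fun k _ => h1 k)]
    rw [Finset.sum_eq_single i]
    · rw [Pi.single_eq_same, one_mul, Pi.single_apply]
      split_ifs <;> simp
    · intro k _ hk
      rw [Pi.single_eq_of_ne hk, zero_mul]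
    · intro hi
      exact absurd (Finset.mem_univ i) hi
  rw [e, Matrix.det_diagonal] at h
  exact h

end Cfsg.Agent.Lib.Helper91.OmSyl
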