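import Cfsg.Agent.Lib.Helper58.OmSyl.Defs
import Cfsg.Agent.Lib.Helper14.DiscClass
import Cfsg.Agent.Lib.Helper14.DiscQuad

set_option autoImplicit false
set_option linter.unusedSectionVars false
set_option linter.unusedVariables false

/-! OmSyl farm (helper58), piece [D2]. -/

namespace Cfsg.Agent.Lib.Helper91.OmSyl

open Cfsg Cfsg.Agent.Lib.Helper58.WrSyl Cfsg.Agent.Lib.Helper58.OmSyl Cfsg.Agent.Lib.Helper44
  Cfsg.Agent.Lib.Helper14
open QuadraticMap Module

/-- isometric quadratic spaces have isomorphic orthogonal groups. -/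
def oqCongr {F V₁ V₂ : Type*} [Field F] [AddCommGroup V₁] [Module F V₁] [AddCommGroup V₂] [Module F V₂]
    (Q₁ : QuadraticForm F V₁) (Q₂ : QuadraticForm F V₂) (g : V₁ ≃ₗ[F] V₂) (hQ : ∀ x, Q₂ (g x) = Q₁ x) :
    OQ Q₁ ≃* OQ Q₂ where
  toFun f := ⟨g.symm.trans (f.1.trans g), by
    intro x
    show Q₂ (g (f.1 (g.symm x))) = Q₂ x
    rw [hQ, f.2, ← hQ, LinearEquiv.apply_symm_apply]⟩
  invFun f := ⟨g.trans (f.1.trans g.symm), by
    intro x
    show Q₁ (g.symm (f.1 (g x))) = Q₁ x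
    rw [← hQ, LinearEquiv.apply_symm_apply, f.2, hQ]⟩
  left_inv f := by
    apply Subtype.ext
    apply LinearEquiv.ext
    intro x
    show g.symm (g (f.1 (g.symm (g x)))) = f.1 x
    rw [LinearEquiv.symm_apply_apply, LinearEquiv.symm_apply_apply]
  right_inv f := by
    apply Subtype.ext
    apply LinearEquiv.ext
    intro x
    show g (g.symm (f.1 (g (g.symm x)))) = f.1 x
    rw [LinearEquiv.apply_symm_apply, LinearEquiv.apply_symm_apply]
  map_mul' f f' := by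
    apply Subtype.ext
    apply LinearEquiv.ext
    intro x
    show g (f.1 (f'.1 (g.symm x))) = g (f.1 (g.symm (g (f'.1 (g.symm x)))))
    rw [LinearEquiv.symm_apply_apply]

theorem oq_equiv_of_disc {F V₁ V₂ : Type*} [Field F] [Fintype F] (h2 : (2 : F) ≠ 0)
    [AddCommGroup V₁] [Module F V₁] [FiniteDimensional F V₁]
    [AddCommGroup V₂] [Module F V₂] [FiniteDimensional F V₂]
    (Q₁ : QuadraticForm F V₁) (Q₂ : QuadraticForm F V₂)
    (h₁ : (polarBilin Q₁).Nondegenerate) (h₂ : (polarBilin Q₂).Nondegenerate)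
    (hd : finrank F V₁ = finrank F V₂) (d₁ d₂ : F) (hd₁ : HasDisc (polarBilin Q₁) d₁)
    (hd₂ : HasDisc (polarBilin Q₂) d₂) (hsq : IsSquare (d₁ * d₂)) :
    Nonempty (OQ Q₁ ≃* OQ Q₂) := by
  obtain ⟨g, hg⟩ := exists_isometry_of_disc h2 (finrank F V₂) (polarBilin Q₁) (polarBilin Q₂)
    (polarBilin_isSymm Q₁) (polarBilin_isSymm Q₂) h₁ h₂ hd rfl d₁ d₂ hd₁ hd₂ hsq
  have hQ : ∀ x, Q₂ (g x) = Q₁ x := by
    intro x
    have h := hg x x
    rw [polarBilin_apply_apply, polarBilin_apply_apply, polar_self, polar_self] at h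
    simp only [nsmul_eq_mul, Nat.cast_ofNat] at h
    exact mul_left_cancel₀ h2 h
  exact ⟨oqCongr Q₁ Q₂ g hQ⟩

end Cfsg.Agent.Lib.Helper91.OmSyl
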