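import Cfsg.Agent.Lib.Helper58.OmSyl.Defs
import Cfsg.Agent.Lib.Helper44.Index

set_option autoImplicit false
set_option linter.unusedSectionVars false
set_option linter.unusedVariables false

/-! OmSyl farm (helper58), piece [D3]. -/

namespace Cfsg.Agent.Lib.Helper91.OmSyl

open Cfsg Cfsg.Agent.Lib.Helper58.WrSyl Cfsg.Agent.Lib.Helper58.OmSyl Cfsg.Agent.Lib.Helper44
open QuadraticMap Module

theorem sq_mem_commutator_OQ {F V : Type*} [Field F] [Fintype F] [AddCommGroup V] [Module F V]
    [FiniteDimensional F V] (h2 : (2 : F) ≠ 0) {Q : QuadraticForm F V}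
    (hQ : (polarBilin Q).Nondegenerate) (g : OQ Q) : g ^ 2 ∈ commutator (OQ Q) := by
  obtain ⟨l, hl, hg⟩ := exists_prod_reflO hQ (Or.inl (gen_hyp_of_two_ne_zero h2)) g
  have e : g ^ 2 = ((l ++ l).map (reflO Q)).prod := by
    rw [List.map_append, List.prod_append, ← hg, pow_two]
  rw [e]
  refine prod_reflO_mem_commutator hQ (l ++ l) ?_ ?_ ?_
  · intro v hv
    rcases List.mem_append.1 hv with h | h <;> exact hl v h
  · rw [List.length_append]
    exact ⟨l.length, rfl⟩
  · rw [List.map_append, List.prod_append]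
    exact ⟨_, rfl⟩

end Cfsg.Agent.Lib.Helper91.OmSyl
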