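import Cfsg.Agent.Lib.Helper58.OmSyl.Defs

set_option autoImplicit false
set_option linter.unusedSectionVars false
set_option linter.unusedVariables false

/-! OmSyl farm (helper58), piece [DH1]. -/

namespace Cfsg.Agent.Lib.Helper91.OmSyl

open Cfsg Cfsg.Agent.Lib.Helper58.WrSyl Cfsg.Agent.Lib.Helper58.OmSyl
open scoped commutatorElement

/-- a Sylow 2-subgroup is not contained in a subgroup of index 2. -/
theorem exists_mem_sylow_not_mem {D : Type*} [Group D] [Finite D] {A : Subgroup D} (hA : A.index = 2)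
    (P : Sylow 2 D) : ∃ s ∈ P, s ∉ A := by
  by_contra hcon
  push Not at hcon
  have hle : (P : Subgroup D) ≤ A := fun s hs => hcon s hs
  have h1 := Subgroup.index_dvd_of_le hle
  rw [hA] at h1
  exact P.not_dvd_index h1

/-- elements outside `A` invert `A`: `a s a = s`. -/
theorem genDih_key {D : Type*} [Group D] {A : Subgroup D} (hs : ∀ s : D, s ∉ A → s ^ 2 = 1)
    {a s : D} (ha : a ∈ A) (hsA : s ∉ A) : a * s * a = s := by
  have h1 : s * a ∉ A := fun h => hsA (by simpa using A.mul_mem h (A.inv_mem ha))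
  have h2 := hs _ h1
  have h3 := hs _ hsA
  rw [pow_two] at h2 h3
  have h4 : a * s * a = s⁻¹ := by
    apply eq_inv_of_mul_eq_one_right
    rw [← h2]
    group
  rw [h4]
  exact (eq_inv_of_mul_eq_one_right h3).symm

theorem genDih_comm {D : Type*} [Group D] {A : Subgroup D} (hs : ∀ s : D, s ∉ A → s ^ 2 = 1)
    {a s : D} (ha : a ∈ A) (hsA : s ∉ A) : ⁅a, s⁆ = a ^ 2 := by
  have key := genDih_key hs ha hsA
  rw [commutatorElement_def, pow_two]
  calc a * s * a⁻¹ * s⁻¹ = a * (a * s * a) * a⁻¹ * s⁻¹ := by rw [key]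
    _ = a * a := by group

theorem powComm_of_genDih {D : Type*} [Group D] [Finite D] (h : GenDih D) (P : Sylow 2 D) :
    PowComm 2 (P : Subgroup D) := by
  obtain ⟨A, hA, hs⟩ := h
  obtain ⟨s, hsP, hsA⟩ := exists_mem_sylow_not_mem hA P
  rintro ⟨x, hx⟩
  by_cases hxA : x ∈ A
  · have h1 : (⟨x, hx⟩ : (P : Subgroup D)) ^ 2 = ⁅(⟨x, hx⟩ : (P : Subgroup D)), ⟨s, hsP⟩⁆ := by
      apply Subtype.ext
      exact (genDih_comm hs hxA hsA).symm
    rw [h1, commutator_def]
    exact Subgroup.commutator_mem_commutator (Subgroup.mem_top _) (Subgroup.mem_top _)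
  · have h1 : (⟨x, hx⟩ : (P : Subgroup D)) ^ 2 = 1 := by
      apply Subtype.ext
      exact hs x hxA
    rw [h1]
    exact Subgroup.one_mem _

end Cfsg.Agent.Lib.Helper91.OmSyl
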