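import Cfsg.Agent.Lib.Helper58.OmSyl.Defs
import Cfsg.Agent.Lib.Helper91.OmSyl.DH1

set_option autoImplicit false
set_option linter.unusedSectionVars false
set_option linter.unusedVariables false

/-! OmSyl farm (helper58), piece [DH2]. -/

namespace Cfsg.Agent.Lib.Helper91.OmSyl

open Cfsg Cfsg.Agent.Lib.Helper58.WrSyl Cfsg.Agent.Lib.Helper58.OmSyl
open scoped commutatorElement

/-- `s a s⁻¹ = a⁻¹`. -/
theorem genDih_conj {D : Type*} [Group D] {A : Subgroup D} (hs : ∀ s : D, s ∉ A → s ^ 2 = 1)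
    {a s : D} (ha : a ∈ A) (hsA : s ∉ A) : s * a * s⁻¹ = a⁻¹ := by
  have key := genDih_key hs ha hsA
  calc s * a * s⁻¹ = a⁻¹ * (a * s * a) * s⁻¹ := by group
    _ = a⁻¹ := by rw [key]; group

theorem genDih_commute {D : Type*} [Group D] {A : Subgroup D} (hA : A.index = 2)
    (hs : ∀ s : D, s ∉ A → s ^ 2 = 1) {a b : D} (ha : a ∈ A) (hb : b ∈ A) : a * b = b * a := by
  obtain ⟨s, hsA⟩ : ∃ s, s ∉ A := by
    by_contra hcon
    push Not at hcon
    have : A = ⊤ := (Subgroup.eq_top_iff' A).2 hcon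
    rw [this, Subgroup.index_top] at hA
    omega
  have h1 := genDih_conj hs (A.mul_mem ha hb) hsA
  have h2 := genDih_conj hs ha hsA
  have h3 := genDih_conj hs hb hsA
  have h4 : s * (a * b) * s⁻¹ = (s * a * s⁻¹) * (s * b * s⁻¹) := by group
  rw [h1, h2, h3] at h4
  have h5 : (a * b)⁻¹ = (b * a)⁻¹ := by rw [h4]; group
  exact inv_injective h5

/-- the squares of the elements of `A`. -/
def sqSub {D : Type*} [Group D] (A : Subgroup D) (hc : ∀ a ∈ A, ∀ b ∈ A, a * b = b * a) : Subgroup D where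
  carrier := {y | ∃ a ∈ A, a ^ 2 = y}
  mul_mem' := by
    rintro _ _ ⟨a, ha, rfl⟩ ⟨b, hb, rfl⟩
    exact ⟨a * b, A.mul_mem ha hb, (show Commute a b from hc a ha b hb).mul_pow 2⟩
  one_mem' := ⟨1, A.one_mem, one_pow 2⟩
  inv_mem' := by
    rintro _ ⟨a, ha, rfl⟩
    exact ⟨a⁻¹, A.inv_mem ha, inv_pow a 2⟩

theorem genDih_commutator_le {D : Type*} [Group D] {A : Subgroup D} (hA : A.index = 2)
    (hs : ∀ s : D, s ∉ A → s ^ 2 = 1) {x : D} (hx : x ∈ commutator D) : ∃ a ∈ A, a ^ 2 = x := by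
  have hc : ∀ a ∈ A, ∀ b ∈ A, a * b = b * a := fun a ha b hb => genDih_commute hA hs ha hb
  have hle : commutator D ≤ sqSub A hc := by
    rw [commutator_def, Subgroup.commutator_le]
    intro g _ h _
    by_cases hg : g ∈ A
    · by_cases hh : h ∈ A
      · refine ⟨1, A.one_mem, ?_⟩
        rw [commutatorElement_def, hc g hg h hh]
        group
      · exact ⟨g, hg, (genDih_comm hs hg hh).symm⟩
    · by_cases hh : h ∈ A
      · refine ⟨h⁻¹, A.inv_mem hh, ?_⟩
        rw [commutatorElement_def, genDih_conj hs hh hg, pow_two]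
      · refine ⟨g * h, (Subgroup.mul_mem_iff_of_index_two hA).2 (by tauto), ?_⟩
        have h1 := hs g hg
        have h2 := hs h hh
        rw [pow_two] at h1 h2
        have h3 : g⁻¹ = g := (eq_inv_of_mul_eq_one_right h1).symm
        have h4 : h⁻¹ = h := (eq_inv_of_mul_eq_one_right h2).symm
        rw [commutatorElement_def, h3, h4, pow_two]
        group
  exact hle hx

theorem mem_comm_sylow_of_genDih {D : Type*} [Group D] [Finite D] (h : GenDih D) (P : Sylow 2 D)
    (x : D) (hx : x ∈ P) (hc : x ∈ commutator D) :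
    (⟨x, hx⟩ : (P : Subgroup D)) ∈ commutator (P : Subgroup D) := by
  obtain ⟨A, hA, hs⟩ := h
  obtain ⟨s, hsP, hsA⟩ := exists_mem_sylow_not_mem hA P
  obtain ⟨a, ha, hax⟩ := genDih_commutator_le hA hs hc
  obtain ⟨k, hk⟩ := P.isPGroup' ⟨x, hx⟩
  have hk' : x ^ 2 ^ k = 1 := by
    have := congrArg Subtype.val hk
    simpa using this
  have hak : a ^ 2 ^ (k + 1) = 1 := by
    rw [pow_succ', pow_mul, hax, hk']
  have hZp : IsPGroup 2 (Subgroup.zpowers a) := by
    rintro ⟨z, n, rfl⟩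
    refine ⟨k + 1, ?_⟩
    apply Subtype.ext
    show (a ^ n) ^ 2 ^ (k + 1) = 1
    rw [← zpow_natCast, ← zpow_mul, mul_comm, zpow_mul, zpow_natCast, hak, one_zpow]
  have hZn : (Subgroup.zpowers a).Normal := by
    constructor
    rintro _ ⟨n, rfl⟩ d
    by_cases hd : d ∈ A
    · refine ⟨n, ?_⟩
      have h1 : d * a = a * d := genDih_commute hA hs hd ha
      have h2 : Commute d (a ^ n) := (show Commute d a from h1).zpow_right n
      show a ^ n = d * a ^ n * d⁻¹
      rw [h2.eq, mul_inv_cancel_right]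
    · refine ⟨-n, ?_⟩
      show a ^ (-n) = d * a ^ n * d⁻¹
      have h1 := genDih_conj hs (A.zpow_mem ha n) hd
      rw [h1, zpow_neg]
  have hsup : IsPGroup 2 ((P : Subgroup D) ⊔ Subgroup.zpowers a : Subgroup D) :=
    IsPGroup.to_sup_of_normal_right P.isPGroup' hZp
  have heq := P.is_maximal' hsup le_sup_left
  have haP : a ∈ (P : Subgroup D) := by
    rw [← heq]
    exact (le_sup_right : Subgroup.zpowers a ≤ _) (Subgroup.mem_zpowers a)
  have h1 : (⟨x, hx⟩ : (P : Subgroup D)) = ⁅(⟨a, haP⟩ : (P : Subgroup D)), ⟨s, hsP⟩⁆ := by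
    apply Subtype.ext
    show x = ⁅a, s⁆
    rw [genDih_comm hs ha hsA, hax]
  rw [h1, commutator_def]
  exact Subgroup.commutator_mem_commutator (Subgroup.mem_top _) (Subgroup.mem_top _)

end Cfsg.Agent.Lib.Helper91.OmSyl
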