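import Cfsg.Agent.Lib.Helper58.OmSyl.Defs
import Cfsg.Agent.Lib.Helper12.WrSyl.T2

set_option autoImplicit false
set_option linter.unusedSectionVars false
set_option linter.unusedVariables false

/-! OmSyl farm (helper58), piece [G5]. -/

namespace Cfsg.Agent.Lib.Helper91.OmSyl

open Cfsg Cfsg.Agent.Lib.Helper58.WrSyl Cfsg.Agent.Lib.Helper58.OmSyl

theorem SylCommPC.of_equiv {G H : Type*} [Group G] [Group H] (e : G ≃* H) (h : SylCommPC G) :
    SylCommPC H := by
  have hmap : (commutator G).map e.toMonoidHom = commutator H := by
    rw [commutator_def, Subgroup.map_commutator, commutator_def,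
      Subgroup.map_top_of_surjective _ e.surjective]
  let e' : commutator G ≃* commutator H :=
    (e.subgroupMap (commutator G)).trans (MulEquiv.subgroupCongr hmap)
  intro P
  let P' : Sylow 2 (commutator G) := P.comapOfInjective e'.toMonoidHom e'.injective (by
    rw [MonoidHom.range_eq_top.2 e'.surjective]
    exact le_top)
  have h1 : ((P' : Subgroup (commutator G)).map (e' : commutator G →* commutator H)) = P := by
    show ((P : Subgroup (commutator H)).comap e'.toMonoidHom).map e'.toMonoidHom = P
    rw [Subgroup.map_comap_eq_self_of_surjective e'.surjective]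
  exact Cfsg.Agent.Lib.Helper12.WrSyl.PowComm.of_equiv
    ((e'.subgroupMap (P' : Subgroup _)).trans (MulEquiv.subgroupCongr h1)) (h P')

end Cfsg.Agent.Lib.Helper91.OmSyl
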